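import Groth.Agent.FlatA.LocalCriterion
import Mathlib.RingTheory.LocalRing.MaximalIdeal.Basic
import Mathlib.RingTheory.Nakayama
import Mathlib.RingTheory.RingHom.Flat
import Mathlib.RingTheory.RingHom.FaithfullyFlat
import Mathlib.RingTheory.Flat.FaithfullyFlat.Algebra
import Mathlib.RingTheory.TensorProduct.Quotient
import Groth.Agent.Flat2F.FlatComp

/-!
# Comparison of two local rings with the same completion: unramified and flat maps
-/

set_option autoImplicit false
universe u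

namespace Groth.Agent.Gaga.H523.CompAlg

open IsLocalRing TensorProduct

/-- `φ : A → B` from a local ring such that `m_A B` is the unique maximal ideal of `B` and
`A/m^n = B/(m B)^n` for all `n`. -/
structure IsComp {A B : Type*} [CommRing A] [CommRing B] [IsLocalRing A] (φ : A →+* B) : Prop where
  isMaximal : ((maximalIdeal A).map φ).IsMaximal
  eq_of_isMaximal : ∀ I : Ideal B, I.IsMaximal → I = (maximalIdeal A).map φ
  surj : ∀ (n : ℕ) (b : B), ∃ a : A, φ a - b ∈ ((maximalIdeal A).map φ) ^ n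
  inj : ∀ (n : ℕ) (a : A), φ a ∈ ((maximalIdeal A).map φ) ^ n → a ∈ (maximalIdeal A) ^ n

variable {A B : Type*} [CommRing A] [CommRing B] [IsLocalRing A] {φ : A →+* B}

theorem IsComp.isLocalRing (h : IsComp φ) : IsLocalRing B := by
  have := h.isMaximal.ne_top
  have : Nontrivial B := by
    by_contra hn
    rw [not_nontrivial_iff_subsingleton] at hn
    exact this (Subsingleton.elim _ _)
  exact IsLocalRing.of_unique_max_ideal ⟨_, h.isMaximal, fun I hI => h.eq_of_isMaximal I hI⟩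

theorem IsComp.maximalIdeal_eq (h : IsComp φ) [IsLocalRing B] :
    maximalIdeal B = (maximalIdeal A).map φ :=
  h.eq_of_isMaximal _ (maximalIdeal.isMaximal B)

theorem IsComp.isLocalHom (h : IsComp φ) [IsLocalRing B] : IsLocalHom φ := by
  refine ((local_hom_TFAE φ).out 0 2 rfl rfl).mpr ?_
  rw [h.maximalIdeal_eq]

/-- `φ(a) ∈ I B + (m B)^n` implies `a ∈ I + m^n`. -/
theorem IsComp.mem_sup (h : IsComp φ) (I : Ideal A) (n : ℕ) (a : A)
    (ha : φ a ∈ I.map φ ⊔ ((maximalIdeal A).map φ) ^ n) : a ∈ I ⊔ (maximalIdeal A) ^ n := by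
  have key : ∀ b ∈ I.map φ, ∃ i ∈ I, b - φ i ∈ ((maximalIdeal A).map φ) ^ n := by
    intro b hb
    refine Submodule.span_induction (p := fun b _ => ∃ i ∈ I, b - φ i ∈ ((maximalIdeal A).map φ) ^ n)
      ?_ ?_ ?_ ?_ hb
    · rintro _ ⟨i, hi, rfl⟩
      exact ⟨i, hi, by simp⟩
    · exact ⟨0, I.zero_mem, by simp⟩
    · rintro x y _ _ ⟨i, hi, hx⟩ ⟨j, hj, hy⟩
      refine ⟨i + j, I.add_mem hi hj, ?_⟩
      have : x + y - φ (i + j) = (x - φ i) + (y - φ j) := by rw [map_add]; ring
      rw [this]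
      exact Ideal.add_mem _ hx hy
    · rintro c x _ ⟨i, hi, hx⟩
      obtain ⟨c', hc'⟩ := h.surj n c
      refine ⟨c' * i, I.mul_mem_left _ hi, ?_⟩
      have : c • x - φ (c' * i) = c * (x - φ i) - (φ c' - c) * φ i := by
        rw [map_mul, smul_eq_mul]; ring
      rw [this]
      exact Ideal.sub_mem _ (Ideal.mul_mem_left _ _ hx) (Ideal.mul_mem_right _ _ hc')
  obtain ⟨b, hb, e, he, hbe⟩ := Submodule.mem_sup.1 ha
  obtain ⟨i, hi, hbi⟩ := key b hb
  have h1 : φ (a - i) ∈ ((maximalIdeal A).map φ) ^ n := by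
    have : φ (a - i) = (b - φ i) + e := by rw [map_sub, ← hbe]; ring
    rw [this]
    exact Ideal.add_mem _ hbi he
  have h2 := h.inj n _ h1
  have : a = i + (a - i) := by ring
  rw [this]
  exact Submodule.add_mem_sup hi h2

/-! ### The square -/

section square

variable {A₁ A₂ B₁ B₂ : Type*} [CommRing A₁] [CommRing A₂] [CommRing B₁] [CommRing B₂]
  [IsLocalRing A₁] [IsLocalRing A₂] {φ₁ : A₁ →+* B₁} {φ₂ : A₂ →+* B₂}
  {α : A₁ →+* A₂} {β : B₁ →+* B₂}

omit [IsLocalRing A₁] [IsLocalRing A₂] in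
theorem map_map_eq (hsq : β.comp φ₁ = φ₂.comp α) (I : Ideal A₁) :
    (I.map φ₁).map β = (I.map α).map φ₂ := by
  rw [Ideal.map_map, hsq, Ideal.map_map]

/-- Unramifiedness in terms of the analytic rings. -/
theorem unramified_iff [IsNoetherianRing A₂] [IsLocalHom α] (h₁ : IsComp φ₁) (h₂ : IsComp φ₂)
    (hsq : β.comp φ₁ = φ₂.comp α) :
    (maximalIdeal A₁).map α = maximalIdeal A₂ ↔
      ∀ m : Ideal B₂, m.IsMaximal → ∃ m' : Ideal B₁, m'.IsMaximal ∧ m'.map β = m := by
  constructor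
  · intro h m hm
    refine ⟨(maximalIdeal A₁).map φ₁, h₁.isMaximal, ?_⟩
    rw [map_map_eq hsq, h, ← h₂.eq_of_isMaximal m hm]
  · intro h
    obtain ⟨m', hm', hm⟩ := h _ h₂.isMaximal
    rw [h₁.eq_of_isMaximal m' hm', map_map_eq hsq] at hm
    have hle : (maximalIdeal A₁).map α ≤ maximalIdeal A₂ :=
      ((local_hom_TFAE α).out 0 2 rfl rfl).mp ‹_›
    refine le_antisymm hle ?_
    have hN : maximalIdeal A₂ ≤ (maximalIdeal A₁).map α ⊔ maximalIdeal A₂ • maximalIdeal A₂ := by
      intro a ha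
      rw [smul_eq_mul, ← pow_two]
      apply h₂.mem_sup
      rw [hm]
      exact Ideal.mem_sup_left (Ideal.mem_map_of_mem φ₂ ha)
    refine Submodule.le_of_le_smul_of_le_jacobson_bot (IsNoetherian.noetherian _) ?_ hN
    rw [jacobson_eq_maximalIdeal ⊥ bot_ne_top]

omit [IsLocalRing A₁] [IsLocalRing A₂] in
/-- The descent half for flatness. -/
theorem flat_of_flat (hsq : β.comp φ₁ = φ₂.comp α) (hφ₁ : φ₁.Flat) (hφ₂ : φ₂.FaithfullyFlat)
    (hβ : β.Flat) : α.Flat := by
  refine Groth.Agent.Flat2F.FlatComp.ringHom_flat_of_comp_faithfullyFlat α φ₂ hφ₂ ?_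
  rw [← hsq]
  exact hφ₁.comp hβ

end square

section quot

variable {A B : Type*} [CommRing A] [CommRing B]

theorem flat_quotientMap (g : A →+* B) (hg : g.Flat) (J : Ideal A) (K : Ideal B)
    (hK : K = J.map g) (hle : J ≤ K.comap g) : (Ideal.quotientMap K g hle).Flat := by
  subst hK
  algebraize [g]
  have h1 : Module.Flat (A ⧸ J) (B ⧸ J.map (algebraMap A B)) :=
    Module.Flat.of_linearEquiv
      (Algebra.TensorProduct.quotIdealMapEquivQuotTensor B J).toLinearEquiv
  have h2 : (algebraMap (A ⧸ J) (B ⧸ J.map (algebraMap A B))).Flat :=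
    RingHom.flat_algebraMap_iff.mpr h1
  exact h2

theorem flat_tensor_of_quotientMap (A B : Type*) [CommRing A] [CommRing B] [Algebra A B]
    (J : Ideal A) (K : Ideal B)
    (hK : K = J.map (algebraMap A B)) (hle : J ≤ K.comap (algebraMap A B))
    (h : (Ideal.quotientMap K (algebraMap A B) hle).Flat) :
    Module.Flat (A ⧸ J) ((A ⧸ J) ⊗[A] B) := by
  subst hK
  have h2 : (algebraMap (A ⧸ J) (B ⧸ J.map (algebraMap A B))).Flat := h
  have h1 : Module.Flat (A ⧸ J) (B ⧸ J.map (algebraMap A B)) := RingHom.flat_algebraMap_iff.mp h2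
  exact Module.Flat.of_linearEquiv
      (Algebra.TensorProduct.quotIdealMapEquivQuotTensor B J).symm.toLinearEquiv

end quot

section square2

variable {A₁ A₂ B₁ B₂ : Type u} [CommRing A₁] [CommRing A₂] [CommRing B₁] [CommRing B₂]
  [IsLocalRing A₁] [IsLocalRing A₂] {φ₁ : A₁ →+* B₁} {φ₂ : A₂ →+* B₂}
  {α : A₁ →+* A₂} {β : B₁ →+* B₂}

/-- The ascent half for flatness, by the local criterion. -/
theorem flat_analytic [IsNoetherianRing B₁] [IsNoetherianRing B₂] [IsLocalHom α]
    (h₁ : IsComp φ₁) (h₂ : IsComp φ₂)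
    (hsq : β.comp φ₁ = φ₂.comp α) (hφ₂ : φ₂.Flat) (hα : α.Flat) : β.Flat := by
  have hflat : (φ₂.comp α).Flat := hα.comp hφ₂
  have := h₁.isLocalRing
  have := h₂.isLocalRing
  algebraize [β]
  have hm : (maximalIdeal B₁).map β ≤ maximalIdeal B₂ := by
    rw [h₁.maximalIdeal_eq, h₂.maximalIdeal_eq, map_map_eq hsq]
    exact Ideal.map_mono (((local_hom_TFAE α).out 0 2 rfl rfl).mp ‹_›)
  refine Groth.Agent.FlatA.LocalCriterion.flat_of_forall_flat_quotient_pow (A := B₁) (B := B₂)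
    (N := B₂) (maximalIdeal B₁) ?_ ?_
  · rw [jacobson_eq_maximalIdeal ⊥ bot_ne_top]
    exact hm
  · intro n _
    set J := maximalIdeal A₁ ^ n with hJ
    have hI : maximalIdeal B₁ ^ n = J.map φ₁ := by
      rw [h₁.maximalIdeal_eq, ← Ideal.map_pow]
    rw [hI]
    refine flat_tensor_of_quotientMap B₁ B₂ (J.map φ₁) ((J.map φ₁).map β) rfl
      Ideal.le_comap_map ?_
    let e : A₁ ⧸ J →+* B₁ ⧸ J.map φ₁ := Ideal.quotientMap _ φ₁ Ideal.le_comap_map
    have he : Function.Bijective e := by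
      constructor
      · rw [injective_iff_map_eq_zero]
        intro a ha
        obtain ⟨a, rfl⟩ := Ideal.Quotient.mk_surjective a
        rw [Ideal.quotientMap_mk, Ideal.Quotient.eq_zero_iff_mem, hJ, Ideal.map_pow] at ha
        rw [Ideal.Quotient.eq_zero_iff_mem]
        exact h₁.inj n a ha
      · intro b
        obtain ⟨b, rfl⟩ := Ideal.Quotient.mk_surjective b
        obtain ⟨a, ha⟩ := h₁.surj n b
        refine ⟨Ideal.Quotient.mk _ a, ?_⟩
        rw [Ideal.quotientMap_mk, Ideal.Quotient.eq, hJ, Ideal.map_pow]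
        exact ha
    let e' := RingEquiv.ofBijective e he
    have hle : J ≤ ((J.map φ₁).map β).comap (φ₂.comp α) := by
      rw [Ideal.map_map, hsq]
      exact Ideal.le_comap_map
    have hK : (J.map φ₁).map β = J.map (φ₂.comp α) := by rw [Ideal.map_map, hsq]
    have h3 : (Ideal.quotientMap ((J.map φ₁).map β) (φ₂.comp α) hle).Flat :=
      flat_quotientMap _ hflat J _ hK _
    have h4 : Ideal.quotientMap ((J.map φ₁).map β) (algebraMap B₁ B₂) Ideal.le_comap_map =
        (Ideal.quotientMap ((J.map φ₁).map β) (φ₂.comp α) hle).comp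
          (e'.symm : B₁ ⧸ J.map φ₁ →+* A₁ ⧸ J) := by
      rw [← RingHom.cancel_right (f := (e' : A₁ ⧸ J →+* B₁ ⧸ J.map φ₁)) e'.surjective]
      ext a
      simp only [RingHom.comp_apply, RingHom.coe_coe, RingEquiv.symm_apply_apply]
      change Ideal.quotientMap ((J.map φ₁).map β) (algebraMap B₁ B₂) Ideal.le_comap_map
        (Ideal.Quotient.mk _ (φ₁ a)) = _
      rw [Ideal.quotientMap_mk, Ideal.quotientMap_mk]
      congr 1
      exact RingHom.congr_fun hsq a
    rw [h4]
    exact (RingHom.Flat.of_bijective e'.symm.bijective).comp h3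

end square2

end Groth.Agent.Gaga.H523.CompAlg
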