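import Groth.Agent.An.H863.PtsBasic
import Groth.Agent.An.H871.Surj
import Groth.Agent.UnramA.NearPoint
import Groth.Agent.Sga3C.FlatAt
import Mathlib.RingTheory.Unramified.LocalRing

/-!
# Flat / unramified / étale morphisms of schemes locally of finite type over ℂ, tested at ℂ-points
-/

set_option autoImplicit false
open CategoryTheory AlgebraicGeometry Topology TopologicalSpace Opposite IsLocalRing

noncomputable section

namespace Groth.Agent.Gaga.H523.SchemePts

open Groth.Agent.An.H863.PtsBasic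

variable {X Y : Scheme.{0}} [X.Over An.SC] [Y.Over An.SC]

/-- A germ at a ℂ-point is a unit iff its value is nonzero. -/
theorem isUnit_germ_iff (x : An.Pts X) (U : X.Opens) (h : x.pt ∈ U) (s : Γ(X, U)) :
    IsUnit (X.presheaf.germ U x.pt h s) ↔ x.ev U h s ≠ 0 := by
  rw [ev_ne_zero_iff, Scheme.mem_basicOpen _ _ _ h]

theorem germ_mem_maximalIdeal_iff (x : An.Pts X) (U : X.Opens) (h : x.pt ∈ U) (s : Γ(X, U)) :
    X.presheaf.germ U x.pt h s ∈ maximalIdeal (X.presheaf.stalk x.pt) ↔ x.ev U h s = 0 := by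
  rw [mem_maximalIdeal, mem_nonunits_iff, isUnit_germ_iff, not_not]

/-- Every germ is a constant modulo the maximal ideal. -/
theorem exists_const (x : An.Pts X) (a : X.presheaf.stalk x.pt) :
    ∃ c : ℂ, a - X.presheaf.germ ⊤ x.pt trivial (An.strHom X c) ∈
      maximalIdeal (X.presheaf.stalk x.pt) := by
  obtain ⟨U, h, s, rfl⟩ := X.presheaf.exists_germ_eq a
  refine ⟨x.ev U h s, ?_⟩
  have h1 : X.presheaf.germ ⊤ x.pt trivial (An.strHom X (x.ev U h s)) =
      X.presheaf.germ U x.pt h (strU U (x.ev U h s)) := by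
    change _ = X.presheaf.germ U x.pt h (X.presheaf.map (homOfLE le_top).op
      (An.strHom X (x.ev U h s)))
    rw [TopCat.Presheaf.germ_res_apply]
  rw [h1, ← map_sub, germ_mem_maximalIdeal_iff, ev_sub, ev_strU, sub_self]

theorem app_strHom (f : X ⟶ Y) [f.IsOver An.SC] (c : ℂ) :
    f.appTop (An.strHom Y c) = An.strHom X c := by
  have h : f ≫ (Y ↘ An.SC) = X ↘ An.SC := comp_over f An.SC
  change f.appTop ((Y ↘ An.SC).appTop ((Scheme.ΓSpecIso (CommRingCat.of ℂ)).inv c)) =
    (X ↘ An.SC).appTop ((Scheme.ΓSpecIso (CommRingCat.of ℂ)).inv c)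
  rw [← ConcreteCategory.comp_apply, ← Scheme.Hom.comp_appTop, h]

theorem stalkMap_const (f : X ⟶ Y) [f.IsOver An.SC] (x : X) (c : ℂ) :
    f.stalkMap x (Y.presheaf.germ ⊤ (f x) trivial (An.strHom Y c)) =
      X.presheaf.germ ⊤ x trivial (An.strHom X c) := by
  rw [← app_strHom f c]
  exact Scheme.Hom.germ_stalkMap_apply f ⊤ x trivial _

/-- The residue field extension at a ℂ-point is an isomorphism. -/
theorem exists_stalkMap_sub_mem (f : X ⟶ Y) [f.IsOver An.SC] (x : An.Pts X)
    (a : X.presheaf.stalk x.pt) :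
    ∃ b : Y.presheaf.stalk (f x.pt), a - f.stalkMap x.pt b ∈
      maximalIdeal (X.presheaf.stalk x.pt) := by
  obtain ⟨c, hc⟩ := exists_const x a
  refine ⟨Y.presheaf.germ ⊤ (f x.pt) trivial (An.strHom Y c), ?_⟩
  rwa [stalkMap_const]

section alg

variable {R S : Type*} [CommRing R] [CommRing S] [Algebra R S] [IsLocalRing R] [IsLocalRing S]
  [IsLocalHom (algebraMap R S)]

theorem isSeparable_of_forall (h : ∀ a : S, ∃ b : R, a - algebraMap R S b ∈ maximalIdeal S) :
    Algebra.IsSeparable (ResidueField R) (ResidueField S) := by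
  have hs : Function.Surjective (algebraMap (ResidueField R) (ResidueField S)) := by
    intro a
    obtain ⟨a, rfl⟩ := residue_surjective a
    obtain ⟨b, hb⟩ := h a
    refine ⟨residue R b, ?_⟩
    rw [ResidueField.algebraMap_residue]
    rw [← sub_eq_zero, ← map_sub, residue_eq_zero_iff]
    rw [← neg_mem_iff, neg_sub]
    exact hb
  constructor
  intro a
  obtain ⟨b, rfl⟩ := hs a
  exact isSeparable_algebraMap b

end alg

variable [LocallyOfFiniteType (X ↘ An.SC)]

/-- unramified at a ℂ-point: the maximal ideal generates the maximal ideal -/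
theorem formallyUnramified_stalkMap_iff (f : X ⟶ Y) [f.IsOver An.SC] (x : An.Pts X) :
    (f.stalkMap x.pt).hom.FormallyUnramified ↔
      (maximalIdeal (Y.presheaf.stalk (f x.pt))).map (f.stalkMap x.pt).hom =
        maximalIdeal (X.presheaf.stalk x.pt) := by
  have := Groth.Agent.An.H871.Basic.locallyOfFiniteType_of_isOver f
  algebraize [(f.stalkMap x.pt).hom]
  have : IsLocalHom (algebraMap (Y.presheaf.stalk (f x.pt)) (X.presheaf.stalk x.pt)) :=
    inferInstanceAs <| IsLocalHom (f.stalkMap x.pt).hom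
  have : Algebra.EssFiniteType (Y.presheaf.stalk (f x.pt)) (X.presheaf.stalk x.pt) := by
    rw [← RingHom.essFiniteType_algebraMap, RingHom.algebraMap_toAlgebra]
    exact LocallyOfFiniteType.stalkMap f x.pt
  have hsep : Algebra.IsSeparable (ResidueField (Y.presheaf.stalk (f x.pt)))
      (ResidueField (X.presheaf.stalk x.pt)) :=
    isSeparable_of_forall fun a => exists_stalkMap_sub_mem f x a
  change (algebraMap (Y.presheaf.stalk (f x.pt)) (X.presheaf.stalk x.pt)).FormallyUnramified ↔
    (maximalIdeal (Y.presheaf.stalk (f x.pt))).map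
      (algebraMap (Y.presheaf.stalk (f x.pt)) (X.presheaf.stalk x.pt)) = _
  rw [RingHom.formallyUnramified_algebraMap, Algebra.FormallyUnramified.iff_map_maximalIdeal_eq]
  exact ⟨fun h => h.2, fun h => ⟨hsep, h⟩⟩

/-- a morphism is unramified iff it is so at all ℂ-points -/
theorem formallyUnramified_iff (f : X ⟶ Y) [f.IsOver An.SC] :
    FormallyUnramified f ↔ ∀ x : An.Pts X,
      (maximalIdeal (Y.presheaf.stalk (f x.pt))).map (f.stalkMap x.pt).hom =
        maximalIdeal (X.presheaf.stalk x.pt) := by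
  have := Groth.Agent.An.H871.Basic.locallyOfFiniteType_of_isOver f
  constructor
  · intro h x
    exact (formallyUnramified_stalkMap_iff f x).mp (FormallyUnramified.stalkMap f x.pt)
  · intro h
    have hop := Groth.Agent.UnramA.NearPoint.isOpen_formallyUnramified_stalkMap f
    have huniv : ∀ x : X, (f.stalkMap x).hom.FormallyUnramified := by
      by_contra hne
      push Not at hne
      obtain ⟨x, hx⟩ := hne
      obtain ⟨z, hz⟩ := exists_pt_mem_of_isClosed hop.isClosed_compl ⟨x, hx⟩
      exact hz ((formallyUnramified_stalkMap_iff f z).mpr (h z))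
    exact HasRingHomProperty.of_stalkMap RingHom.FormallyUnramified.ofLocalizationPrime huniv

omit [Y.Over An.SC] in
/-- a morphism is flat iff it is so at all ℂ-points -/
theorem flat_iff (f : X ⟶ Y) :
    Flat f ↔ ∀ x : An.Pts X, (f.stalkMap x.pt).hom.Flat := by
  constructor
  · intro h x
    exact Flat.stalkMap f x.pt
  · intro h
    have := jacobsonSpace X
    refine Groth.Agent.Sga3C.FlatAt.flat_of_flatAt_closedPoints f fun x hx => ?_
    obtain ⟨z, rfl⟩ := exists_pt_eq x hx
    exact h z

/-- étale = flat + unramified over ℂ -/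
theorem etale_iff [LocallyOfFiniteType (Y ↘ An.SC)] (f : X ⟶ Y) [f.IsOver An.SC] :
    Etale f ↔ Flat f ∧ FormallyUnramified f := by
  rw [Etale.iff_flat_and_formallyUnramified]
  have := Groth.Agent.An.H871.Surj.locallyOfFinitePresentation f
  exact ⟨fun h => ⟨h.1, h.2.1⟩, fun h => ⟨h.1, h.2, this⟩⟩

end Groth.Agent.Gaga.H523.SchemePts
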