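import Groth.Agent.Gaga.H523.Square
import Groth.Agent.Gaga.H523.CompAlg
import Groth.Agent.Gaga.H523.SchemePts

/-!
# Flat, unramified, étale in terms of holomorphic local rings (conditional on the comparison of completions)

Hypotheses used: `IsComp (phi x)` (the content of S4314), `(phi x).Flat` (S4313), Noetherianity of the
holomorphic stalks.
-/

set_option autoImplicit false
open CategoryTheory AlgebraicGeometry Topology TopologicalSpace Opposite IsLocalRing

noncomputable section

namespace Groth.Agent.Gaga.H523.Cond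

open Square CompAlg

variable {X Y : Scheme.{0}} [X.Over An.SC] [Y.Over An.SC]

/-- the content of S4314 as a structure -/
theorem isComp_of (x : An.Pts X)
    (h : (((IsLocalRing.maximalIdeal (X.presheaf.stalk x.pt)).map
        (PresheafedSpace.Hom.stalkMap (An.anToScheme X) x).hom).IsMaximal ∧
      ∀ I : Ideal ((An.anSpace X).presheaf.stalk x), I.IsMaximal →
        I = (IsLocalRing.maximalIdeal (X.presheaf.stalk x.pt)).map
          (PresheafedSpace.Hom.stalkMap (An.anToScheme X) x).hom) ∧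
    ∀ n : ℕ,
      (∀ b : (An.anSpace X).presheaf.stalk x, ∃ a : X.presheaf.stalk x.pt,
        (PresheafedSpace.Hom.stalkMap (An.anToScheme X) x).hom a - b ∈
          ((IsLocalRing.maximalIdeal (X.presheaf.stalk x.pt)).map
            (PresheafedSpace.Hom.stalkMap (An.anToScheme X) x).hom) ^ n) ∧
      (∀ a : X.presheaf.stalk x.pt,
        (PresheafedSpace.Hom.stalkMap (An.anToScheme X) x).hom a ∈
          ((IsLocalRing.maximalIdeal (X.presheaf.stalk x.pt)).map
            (PresheafedSpace.Hom.stalkMap (An.anToScheme X) x).hom) ^ n →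
        a ∈ (IsLocalRing.maximalIdeal (X.presheaf.stalk x.pt)) ^ n)) : IsComp (phi x) where
  isMaximal := h.1.1
  eq_of_isMaximal := h.1.2
  surj n := (h.2 n).1
  inj n := (h.2 n).2

theorem isLocalHom_stalkMap {X Y : Scheme.{0}} (f : X ⟶ Y) (x : X) :
    IsLocalHom (f.stalkMap x).hom := inferInstance

theorem faithfullyFlat_phi (x : An.Pts X) (hX : IsComp (phi x)) (hfl : (phi x).Flat) :
    (phi x).FaithfullyFlat := by
  have := hX.isLocalRing
  have := hX.isLocalHom
  algebraize [phi x]
  have : IsLocalHom (algebraMap (X.presheaf.stalk x.pt) ((An.anSpace X).presheaf.stalk x)) :=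
    inferInstanceAs (IsLocalHom (phi x))
  exact RingHom.faithfullyFlat_algebraMap_iff.mpr Module.FaithfullyFlat.of_flat_of_isLocalHom

variable [LocallyOfFiniteType (X ↘ An.SC)]

theorem formallyUnramified_iff (f : X ⟶ Y) [f.IsOver An.SC]
    (hX : ∀ x : An.Pts X, IsComp (phi x)) (hY : ∀ y : An.Pts Y, IsComp (phi y)) :
    FormallyUnramified f ↔ ∀ (x : An.Pts X) (m : Ideal ((An.anSpace X).presheaf.stalk x)),
      m.IsMaximal → ∃ m' : Ideal ((An.anSpace Y).presheaf.stalk (An.Pts.map f x)),
        m'.IsMaximal ∧ m'.map (beta f x) = m := by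
  rw [SchemePts.formallyUnramified_iff]
  refine forall_congr' fun x => ?_
  have := Groth.Agent.An.H871.Surj.isLocallyNoetherian X
  have := isLocalHom_stalkMap f x.pt
  exact CompAlg.unramified_iff (hY (An.Pts.map f x)) (hX x) (square_comp f x)

theorem flat_of_beta (f : X ⟶ Y) [f.IsOver An.SC]
    (hX : ∀ x : An.Pts X, IsComp (phi x))
    (fX : ∀ x : An.Pts X, (phi x).Flat) (fY : ∀ y : An.Pts Y, (phi y).Flat)
    (h : ∀ x : An.Pts X, (beta f x).Flat) : Flat f := by
  rw [SchemePts.flat_iff]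
  intro x
  exact CompAlg.flat_of_flat (square_comp f x) (fY (An.Pts.map f x))
    (faithfullyFlat_phi x (hX x) (fX x)) (h x)

omit [LocallyOfFiniteType (X ↘ An.SC)] in
theorem beta_flat (f : X ⟶ Y) [f.IsOver An.SC] [Flat f] (x : An.Pts X)
    (hX : IsComp (phi x)) (hY : IsComp (phi (An.Pts.map f x)))
    (fX : (phi x).Flat)
    (nX : IsNoetherianRing ((An.anSpace X).presheaf.stalk x))
    (nY : IsNoetherianRing ((An.anSpace Y).presheaf.stalk (An.Pts.map f x))) :
    (beta f x).Flat := by
  have hl := isLocalHom_stalkMap f x.pt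
  have hf : (f.stalkMap x.pt).hom.Flat := Flat.stalkMap f x.pt
  exact @CompAlg.flat_analytic (Y.presheaf.stalk (f x.pt)) (X.presheaf.stalk x.pt)
    ((An.anSpace Y).presheaf.stalk (An.Pts.map f x)) ((An.anSpace X).presheaf.stalk x)
    _ _ _ _ _ _ (phi (An.Pts.map f x)) (phi x) (f.stalkMap x.pt).hom (beta f x) nY nX hl hY hX
    (square_comp f x) fX hf

theorem flat_iff (f : X ⟶ Y) [f.IsOver An.SC]
    (hX : ∀ x : An.Pts X, IsComp (phi x)) (hY : ∀ y : An.Pts Y, IsComp (phi y))
    (fX : ∀ x : An.Pts X, (phi x).Flat) (fY : ∀ y : An.Pts Y, (phi y).Flat)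
    (nX : ∀ x : An.Pts X, IsNoetherianRing ((An.anSpace X).presheaf.stalk x))
    (nY : ∀ y : An.Pts Y, IsNoetherianRing ((An.anSpace Y).presheaf.stalk y)) :
    Flat f ↔ ∀ x : An.Pts X, (beta f x).Flat :=
  ⟨fun _ x => beta_flat f x (hX x) (hY _) (fX x) (nX x) (nY _), flat_of_beta f hX fX fY⟩

/-- isomorphic holomorphic local rings: étale -/
theorem etale_of_beta [LocallyOfFiniteType (Y ↘ An.SC)] (f : X ⟶ Y) [f.IsOver An.SC]
    (hX : ∀ x : An.Pts X, IsComp (phi x)) (hY : ∀ y : An.Pts Y, IsComp (phi y))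
    (fX : ∀ x : An.Pts X, (phi x).Flat) (fY : ∀ y : An.Pts Y, (phi y).Flat)
    (h : ∀ x : An.Pts X, Function.Bijective (beta f x)) : Etale f := by
  rw [SchemePts.etale_iff]
  refine ⟨flat_of_beta f hX fX fY fun x => RingHom.Flat.of_bijective (h x), ?_⟩
  rw [formallyUnramified_iff f hX hY]
  intro x m hm
  refine ⟨m.comap (beta f x), ?_, ?_⟩
  · exact Ideal.comap_isMaximal_of_surjective _ (h x).2
  · exact Ideal.map_comap_of_surjective _ (h x).2 _

end Groth.Agent.Gaga.H523.Cond
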