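import Groth.Prelude.Def_AnHol

/-!
# The square of stalks attached to `X^an → Y^an`, `X → Y`
-/

set_option autoImplicit false
open CategoryTheory AlgebraicGeometry Topology TopologicalSpace Opposite

noncomputable section

namespace Groth.Agent.Gaga.H523.Square

variable {X Y : Scheme.{0}} [X.Over An.SC] [Y.Over An.SC]

/-- The map `O_{X,x} → O_{X^an,x}`. -/
abbrev phi (x : An.Pts X) : X.presheaf.stalk x.pt →+* (An.anSpace X).presheaf.stalk x :=
  (PresheafedSpace.Hom.stalkMap (An.anToScheme X) x).hom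

/-- The map `O_{Y^an,f(x)} → O_{X^an,x}`. -/
abbrev beta (f : X ⟶ Y) [f.IsOver An.SC] (x : An.Pts X) :
    (An.anSpace Y).presheaf.stalk (An.Pts.map f x) →+* (An.anSpace X).presheaf.stalk x :=
  (PresheafedSpace.Hom.stalkMap (An.anMap f) x).hom

theorem phi_germ (x : An.Pts X) (U : X.Opens) (h : x.pt ∈ U) (s : Γ(X, U)) :
    phi x (X.presheaf.germ U x.pt h s) =
      (An.anSpace X).presheaf.germ ((Opens.map (An.anToScheme X).base).obj U) x h
        ((An.toHolApp U) s) :=
  ConcreteCategory.congr_hom (PresheafedSpace.stalkMap_germ (An.anToScheme X) U x h) s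

theorem beta_germ (f : X ⟶ Y) [f.IsOver An.SC] (x : An.Pts X) (V : Opens (An.top Y))
    (h : An.Pts.map f x ∈ V) (g : (An.holPresheaf Y).obj (op V)) :
    beta f x ((An.anSpace Y).presheaf.germ V (An.Pts.map f x) h g) =
      (An.anSpace X).presheaf.germ ((Opens.map (An.topMap f)).obj V) x h (An.anMapApp f V g) :=
  ConcreteCategory.congr_hom (PresheafedSpace.stalkMap_germ (An.anMap f) V x h) g

theorem square (f : X ⟶ Y) [f.IsOver An.SC] (x : An.Pts X) (a : Y.presheaf.stalk (f x.pt)) :
    beta f x (phi (An.Pts.map f x) a) = phi x (f.stalkMap x.pt a) := by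
  obtain ⟨V, h, s, rfl⟩ := Y.presheaf.exists_germ_eq a
  have h1 : phi (An.Pts.map f x) (Y.presheaf.germ V (f x.pt) h s) =
      (An.anSpace Y).presheaf.germ ((Opens.map (An.anToScheme Y).base).obj V) (An.Pts.map f x) h
        ((An.toHolApp V) s) := phi_germ (An.Pts.map f x) V h s
  have h2 := beta_germ f x ((Opens.map (An.anToScheme Y).base).obj V) h ((An.toHolApp V) s)
  have h3 : f.stalkMap x.pt (Y.presheaf.germ V (f x.pt) h s) =
      X.presheaf.germ (f ⁻¹ᵁ V) x.pt h (f.app V s) := Scheme.Hom.germ_stalkMap_apply f V x.pt h s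
  have h4 := phi_germ x (f ⁻¹ᵁ V) h (f.app V s)
  rw [h1, h3, h4]
  refine h2.trans ?_
  have h5 : An.anMapApp f ((Opens.map (An.anToScheme Y).base).obj V) ((An.toHolApp V) s) =
      (An.toHolApp (f ⁻¹ᵁ V)) (f.app V s) := by
    apply Subtype.ext
    funext z
    exact An.Pts.ev_map f z.1 V z.2 s
  exact congrArg _ h5

theorem square_comp (f : X ⟶ Y) [f.IsOver An.SC] (x : An.Pts X) :
    (beta f x).comp (phi (An.Pts.map f x)) = (phi x).comp (f.stalkMap x.pt).hom :=
  RingHom.ext fun a => square f x a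

end Groth.Agent.Gaga.H523.Square
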